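import Cfsg.Agent.H198.TwComp
import Cfsg.Agent.H727.GW.Isom
import Cfsg.Agent.LieClassical.OrthFinite

/-!
# S3510, triality, type iii: automorphisms of the twisted composition (helper393)

Facts on linear automorphisms `c ∈ O Q` of prime order `l` of a twisted symmetric composition (`H198.TwComp.TC`) of
dimension eight over a finite field:

* `core` : if `Fix c ≠ 0`, the order modulo `l` of the exponent of `σ` is `< 8`;
* `z9` : `l ∣ q² ± q + 1`, `l ≠ 3` does not occur;
* `z4_fix` : `l ∣ q0² + 1` odd: `Fix c = 0`;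
* `za` : `b⁶ = 1`, `b² ≠ 1` mod `l` (`b` the exponent of `σ`) : `Fix c = 0` or `dim Fix c = 2`.
-/

set_option autoImplicit false
set_option linter.unusedSectionVars false

namespace Cfsg.Agent.H393.TZ

open Module QuadraticMap Cfsg.Agent.LieClassical.OrthCore Cfsg.Agent.LieClassical.OrthTrans
  Cfsg.Agent.H198.TwComp

section abs

variable {F V : Type*} [Field F] [AddCommGroup V] [Module F V]

variable {Q : QuadraticForm F V} {σ : F ≃+* F} {st : V → V → V}

/-! ### Minimal polynomials and semilinear maps -/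

section semi

variable {W : Type*} [AddCommGroup W] [Module F W]

theorem semi_aeval {σ : F ≃+* F} {c : W →ₗ[F] W} {S : W → W} (hadd : ∀ x y, S (x + y) = S x + S y)
    (hsm : ∀ (a : F) x, S (a • x) = σ a • S x) (hc : ∀ x, S (c x) = c (S x)) (P : Polynomial F) (x : W) :
    S (Polynomial.aeval c P x) = Polynomial.aeval c (P.map (σ : F →+* F)) (S x) := by
  induction P using Polynomial.induction_on' with
  | add P P' h h' =>
    rw [map_add, LinearMap.add_apply, hadd, h, h', Polynomial.map_add, map_add, LinearMap.add_apply]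
  | monomial n a =>
    have hpow : ∀ (n : ℕ) (x : W), S ((c ^ n) x) = (c ^ n) (S x) := by
      intro n
      induction n with
      | zero => intro x; rfl
      | succ n ih =>
        intro x
        rw [pow_succ, Module.End.mul_apply, Module.End.mul_apply, ih, hc]
    rw [Polynomial.map_monomial, Polynomial.aeval_monomial, Polynomial.aeval_monomial, Module.End.mul_apply,
      Module.End.mul_apply, Module.algebraMap_end_apply, Module.algebraMap_end_apply, hsm, hpow]
    rfl

theorem minpoly_map [FiniteDimensional F W] {σ : F ≃+* F} {c : W →ₗ[F] W} {S : W → W} (hS : Function.Surjective S)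
    (hadd : ∀ x y, S (x + y) = S x + S y)
    (hsm : ∀ (a : F) x, S (a • x) = σ a • S x) (hc : ∀ x, S (c x) = c (S x)) :
    (minpoly F c).map (σ : F →+* F) = minpoly F c := by
  have hint : IsIntegral F c := Algebra.IsIntegral.isIntegral c
  have h1 : Polynomial.aeval c ((minpoly F c).map (σ : F →+* F)) = 0 := by
    apply LinearMap.ext
    intro y
    obtain ⟨x, rfl⟩ := hS y
    rw [← semi_aeval hadd hsm hc, minpoly.aeval]
    have h0 := hsm 0 0
    rw [zero_smul, map_zero, zero_smul] at h0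
    exact h0
  have h2 := minpoly.dvd F c h1
  exact Polynomial.eq_of_monic_of_dvd_of_natDegree_le (minpoly.monic hint) ((minpoly.monic hint).map _) h2
    (Polynomial.natDegree_map_le)

/-- a root of the minimal polynomial of a fixed-point-free map of order `l` -/
theorem exists_root [FiniteDimensional F W] [Nontrivial W] {p : ℕ} [CharP F p] [Fact p.Prime]
    {c : W →ₗ[F] W} {l : ℕ} (hl : l.Prime) (hlp : l ≠ p) (hcl : c ^ l = 1) (hfix : ∀ x, c x = x → x = 0) :
    ∃ ζ : AlgebraicClosure F, orderOf ζ = l ∧ Polynomial.aeval ζ (minpoly F c) = 0 := by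
  have hint : IsIntegral F c := Algebra.IsIntegral.isIntegral c
  set μ := minpoly F c with hμ
  -- the geometric sum
  have hΦ : Polynomial.aeval c (∑ i ∈ Finset.range l, (Polynomial.X : Polynomial F) ^ i) = 0 := by
    apply LinearMap.ext
    intro x
    rw [LinearMap.zero_apply]
    apply hfix
    have h1 : Polynomial.aeval c ((Polynomial.X - 1 : Polynomial F) * ∑ i ∈ Finset.range l, (Polynomial.X : Polynomial F) ^ i) = 0 := by
      rw [mul_geom_sum, map_sub, map_pow, Polynomial.aeval_X, hcl, map_one, sub_self]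
    rw [map_mul, map_sub, Polynomial.aeval_X, map_one] at h1
    have h2 := LinearMap.congr_fun h1 x
    rw [Module.End.mul_apply, LinearMap.sub_apply, Module.End.one_apply, LinearMap.zero_apply, sub_eq_zero] at h2
    exact h2
  have hdvd : μ ∣ ∑ i ∈ Finset.range l, (Polynomial.X : Polynomial F) ^ i := minpoly.dvd F c hΦ
  obtain ⟨ζ, hζ⟩ := IsAlgClosed.exists_aeval_eq_zero (AlgebraicClosure F) μ (minpoly.degree_pos hint).ne'
  have hpc : CharP (AlgebraicClosure F) p := charP_of_injective_algebraMap (algebraMap F (AlgebraicClosure F)).injective p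
  have hζΦ : ∑ i ∈ Finset.range l, ζ ^ i = 0 := by
    obtain ⟨R, hR⟩ := hdvd
    have h1 := congrArg (Polynomial.aeval ζ) hR
    rw [map_mul, hζ, zero_mul, map_sum] at h1
    simpa using h1
  have hζl : ζ ^ l = 1 := by
    have h1 := mul_geom_sum ζ l
    rw [hζΦ, mul_zero] at h1
    exact (sub_eq_zero.1 h1.symm)
  have hζ1 : ζ ≠ 1 := by
    rintro rfl
    simp only [one_pow, Finset.sum_const, Finset.card_range, nsmul_eq_mul, mul_one] at hζΦ
    have h1 := (CharP.cast_eq_zero_iff (AlgebraicClosure F) p l).1 hζΦ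
    rcases (Nat.dvd_prime hl).1 h1 with h2 | h2
    · exact (Fact.out : p.Prime).one_lt.ne' h2
    · exact hlp h2.symm
  have hfl : Fact l.Prime := ⟨hl⟩
  exact ⟨ζ, orderOf_eq_prime hζl hζ1, hζ⟩

/-- the roots of a `σ`-stable polynomial are closed under the power map -/
theorem root_pow {σ : F ≃+* F} {p n : ℕ} [CharP F p] [Fact p.Prime] (hσ : ∀ a : F, σ a = a ^ (p ^ n))
    {μ : Polynomial F} (hmap : μ.map (σ : F →+* F) = μ) {y : AlgebraicClosure F} (hy : Polynomial.aeval y μ = 0) :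
    Polynomial.aeval (y ^ (p ^ n)) μ = 0 := by
  have hpc : CharP (AlgebraicClosure F) p := charP_of_injective_algebraMap (algebraMap F (AlgebraicClosure F)).injective p
  have h1 := congrArg (iterateFrobenius (AlgebraicClosure F) p n) hy
  rw [Polynomial.aeval_def, Polynomial.hom_eval₂, map_zero, iterateFrobenius_def] at h1
  have h2 : (iterateFrobenius (AlgebraicClosure F) p n).comp (algebraMap F (AlgebraicClosure F)) =
      (algebraMap F (AlgebraicClosure F)).comp (σ : F →+* F) := by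
    ext a
    rw [RingHom.comp_apply, RingHom.comp_apply, iterateFrobenius_def]
    show _ = algebraMap F (AlgebraicClosure F) (σ a)
    rw [hσ, map_pow]
  rw [h2, ← Polynomial.eval₂_map, hmap] at h1
  rw [Polynomial.aeval_def]
  exact h1

/-- the order of the exponent of a power map preserving the roots is at most the dimension -/
theorem pigeon [FiniteDimensional F W] {c : W →ₗ[F] W} {l : ℕ} (hl : l.Prime) {ζ : AlgebraicClosure F}
    (hord : orderOf ζ = l) (hζ : Polynomial.aeval ζ (minpoly F c) = 0) {N : ℕ} (hN : (N : ZMod l) ≠ 0)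
    (hroot : ∀ y : AlgebraicClosure F, Polynomial.aeval y (minpoly F c) = 0 →
      Polynomial.aeval (y ^ N) (minpoly F c) = 0) :
    ∃ i, 1 ≤ i ∧ i ≤ Module.finrank F W ∧ ((N : ZMod l)) ^ i = 1 := by
  classical
  have hint : IsIntegral F c := Algebra.IsIntegral.isIntegral c
  set μ := minpoly F c with hμ
  have hfl : Fact l.Prime := ⟨hl⟩
  have hroots : ∀ i : ℕ, Polynomial.aeval (ζ ^ (N ^ i)) μ = 0 := by
    intro i
    induction i with
    | zero => simpa using hζ
    | succ i ih =>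
      rw [pow_succ N i, pow_mul]
      exact hroot _ ih
  have hμ0 : μ ≠ 0 := minpoly.ne_zero hint
  have hdeg : μ.natDegree ≤ Module.finrank F W := by
    have h1 := LinearMap.minpoly_dvd_charpoly c
    have h2 := Polynomial.natDegree_le_of_dvd h1 (LinearMap.charpoly_monic c).ne_zero
    rwa [LinearMap.charpoly_natDegree] at h2
  have hcard : ((μ.map (algebraMap F (AlgebraicClosure F))).roots.toFinset).card < (Finset.range (Module.finrank F W + 1)).card := by
    rw [Finset.card_range]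
    have h1 := Multiset.toFinset_card_le (μ.map (algebraMap F (AlgebraicClosure F))).roots
    have h2 := Polynomial.card_roots' (μ.map (algebraMap F (AlgebraicClosure F)))
    rw [Polynomial.natDegree_map] at h2
    omega
  obtain ⟨i, hi, j, hj, hij, he⟩ := Finset.exists_ne_map_eq_of_card_lt_of_maps_to
    (f := fun i => ζ ^ (N ^ i)) hcard (by
      intro i _
      rw [Finset.mem_coe, Multiset.mem_toFinset, Polynomial.mem_roots (Polynomial.map_ne_zero hμ0), Polynomial.IsRoot.def,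
        Polynomial.eval_map_algebraMap]
      exact hroots i)
  have main : ∀ i j : ℕ, i < j → j ≤ Module.finrank F W → ζ ^ (N ^ i) = ζ ^ (N ^ j) →
      ∃ i, 1 ≤ i ∧ i ≤ Module.finrank F W ∧ ((N : ZMod l)) ^ i = 1 := by
    intro i j hij hj he
    refine ⟨j - i, by omega, by omega, ?_⟩
    have hpr : IsPrimitiveRoot ζ l := by
      have := IsPrimitiveRoot.orderOf ζ
      rwa [hord] at this
    rw [← pow_mod_orderOf ζ (N ^ i), ← pow_mod_orderOf ζ (N ^ j), hord] at he
    replace he := hpr.pow_inj (Nat.mod_lt _ hl.pos) (Nat.mod_lt _ hl.pos) he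
    have h1 : ((N : ZMod l)) ^ i = ((N : ZMod l)) ^ j := by
      rw [← Nat.cast_pow, ← Nat.cast_pow]
      exact (ZMod.natCast_eq_natCast_iff' _ _ _).2 he
    have h3 : ((N : ZMod l)) ^ j = ((N : ZMod l)) ^ i * ((N : ZMod l)) ^ (j - i) := by
      rw [← pow_add]
      congr 1
      omega
    rw [h3] at h1
    exact (mul_right_eq_self₀.1 h1.symm).resolve_right (pow_ne_zero _ hN)
  rw [Finset.mem_range] at hi hj
  rcases lt_or_gt_of_ne hij with h | h
  · exact main i j h (by omega) he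
  · exact main j i h (by omega) he.symm

theorem exists_order [FiniteDimensional F W] [Nontrivial W] {σ : F ≃+* F} {p n : ℕ} [CharP F p] [Fact p.Prime]
    (hσ : ∀ a : F, σ a = a ^ (p ^ n)) {c : W →ₗ[F] W} {S : W → W} (hS : Function.Surjective S)
    (hadd : ∀ x y, S (x + y) = S x + S y) (hsm : ∀ (a : F) x, S (a • x) = σ a • S x) (hc : ∀ x, S (c x) = c (S x))
    {l : ℕ} (hl : l.Prime) (hlp : l ≠ p) (hcl : c ^ l = 1) (hfix : ∀ x, c x = x → x = 0) :
    ∃ i, 1 ≤ i ∧ i ≤ Module.finrank F W ∧ (((p ^ n : ℕ) : ZMod l)) ^ i = 1 := by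
  obtain ⟨ζ, hord, hζ⟩ := exists_root hl hlp hcl hfix
  refine pigeon hl hord hζ ?_ fun y hy => root_pow hσ (minpoly_map hS hadd hsm hc) hy
  intro h3
  have h4 := (ZMod.natCast_eq_zero_iff _ _).1 h3
  exact hlp ((Nat.prime_dvd_prime_iff_eq hl (Fact.out : p.Prime)).1 (hl.dvd_of_dvd_pow h4))

end semi

/-! ### Fixed spaces -/

section fix

variable [Finite F]

/-- the number of fixed points of an element of prime order -/
theorem card_fix {W : Type*} [AddCommGroup W] [Module F W] [FiniteDimensional F W] {l : ℕ} (hl : l.Prime)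
    (c : W →ₗ[F] W) (hcl : c ^ l = 1) (U : Submodule F W) (hU : ∀ x, x ∈ U ↔ c x = x) :
    ((Nat.card F : ℕ) : ZMod l) ^ Module.finrank F W = ((Nat.card F : ℕ) : ZMod l) ^ Module.finrank F U := by
  classical
  have hfl : Fact l.Prime := ⟨hl⟩
  have hfin : Finite W := Module.finite_of_finite F
  have := Fintype.ofFinite F
  have := Fintype.ofFinite W
  obtain ⟨f, hf⟩ : ∃ f : Function.End W, ∀ x, f x = c x := ⟨fun x => c x, fun _ => rfl⟩
  have hpow : ∀ (n : ℕ) (x : W), (f ^ n) x = (c ^ n) x := by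
    intro n
    induction n with
    | zero => intro x; rfl
    | succ n ih =>
      intro x
      rw [pow_succ (a := c), Module.End.mul_apply, ← ih, ← hf, pow_succ]
      rfl
  have h1 : f ^ l ^ 1 = 1 := by
    funext x
    rw [pow_one, hpow, hcl]
    rfl
  have h2 := Equiv.Perm.card_fixedPoints_modEq h1
  have h3 : Fintype.card (Function.fixedPoints f) = Nat.card U := by
    rw [← Nat.card_eq_fintype_card]
    apply Nat.card_congr
    exact Equiv.subtypeEquivRight fun x => by
      rw [hU x, ← hf x]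
      rfl
  have h4 : Fintype.card W = Nat.card F ^ Module.finrank F W := by
    rw [Module.card_eq_pow_finrank (K := F), Nat.card_eq_fintype_card]
  have h5 : Nat.card U = Nat.card F ^ Module.finrank F U := by
    have := Fintype.ofFinite U
    rw [Nat.card_eq_fintype_card, Module.card_eq_pow_finrank (K := F), Nat.card_eq_fintype_card]
  have h6 : Fintype.card W ≡ Fintype.card (Function.fixedPoints f) [MOD l] := h2
  rw [h3, h4, h5] at h6
  have h7 := (ZMod.natCast_eq_natCast_iff _ _ _).2 h6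
  rwa [Nat.cast_pow, Nat.cast_pow] at h7

variable [FiniteDimensional F V]

/-- the fixed space -/
def fx (c : V ≃ₗ[F] V) : Submodule F V where
  carrier := {v | c v = v}
  add_mem' := fun {a b} ha hb => by
    show c (a + b) = a + b
    rw [map_add, ha, hb]
  zero_mem' := map_zero c
  smul_mem' := fun a v hv => by
    show c (a • v) = a • v
    rw [map_smul, hv]

theorem mem_fx {c : V ≃ₗ[F] V} {v : V} : v ∈ fx c ↔ c v = v := Iff.rfl

/-- the average (times `l`) -/
def nm (c : V ≃ₗ[F] V) (l : ℕ) : V →ₗ[F] V := ∑ i ∈ Finset.range l, ((c : V →ₗ[F] V)) ^ i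

theorem cpow_apply (c : V ≃ₗ[F] V) (n : ℕ) (v : V) : ((c : V →ₗ[F] V) ^ n) v = (c ^ n) v := by
  induction n generalizing v with
  | zero => rfl
  | succ n ih => rw [pow_succ, pow_succ, Module.End.mul_apply, ih]; rfl

theorem nm_apply (c : V ≃ₗ[F] V) (l : ℕ) (v : V) : nm c l v = ∑ i ∈ Finset.range l, (c ^ i) v := by
  rw [nm, LinearMap.sum_apply]
  exact Finset.sum_congr rfl fun i _ => cpow_apply c i v

theorem nm_fix {c : V ≃ₗ[F] V} {l : ℕ} (hcl : c ^ l = 1) (v : V) : c (nm c l v) = nm c l v := by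
  rw [nm_apply, map_sum]
  have h1 : ∀ i, c ((c ^ i) v) = (c ^ (i + 1)) v := fun i => by rw [pow_succ']; rfl
  rw [Finset.sum_congr rfl fun i _ => h1 i]
  have h2 := Finset.sum_range_succ' (fun i => (c ^ i) v) l
  rw [Finset.sum_range_succ, hcl] at h2
  simpa using h2.symm

theorem nm_of_fix {c : V ≃ₗ[F] V} {l : ℕ} {v : V} (hv : c v = v) : nm c l v = (l : F) • v := by
  have h1 : ∀ i : ℕ, (c ^ i) v = v := by
    intro i
    induction i with
    | zero => rfl
    | succ i ih => rw [pow_succ', LinearEquiv.mul_apply, ih, hv]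
  rw [nm_apply, Finset.sum_congr rfl fun i _ => h1 i, Finset.sum_const, Finset.card_range, Nat.cast_smul_eq_nsmul]

theorem nm_comm {c : V ≃ₗ[F] V} {l : ℕ} (v : V) : nm c l (c v) = c (nm c l v) := by
  rw [nm_apply, nm_apply, map_sum]
  refine Finset.sum_congr rfl fun i _ => ?_
  rw [← LinearEquiv.mul_apply, ← pow_succ, pow_succ', LinearEquiv.mul_apply]

theorem polar_pow {c : V ≃ₗ[F] V} (hc : c ∈ O Q) {u v : V} (hu : c u = u) (n : ℕ) :
    polar Q u ((c ^ n) v) = polar Q u v := by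
  induction n with
  | zero => rfl
  | succ n ih =>
    rw [pow_succ', LinearEquiv.mul_apply]
    nth_rewrite 1 [← hu]
    rw [polar_map hc, ih]

theorem polar_nm {c : V ≃ₗ[F] V} (hc : c ∈ O Q) {u : V} (hu : c u = u) (l : ℕ) (v : V) :
    polar Q u (nm c l v) = (l : F) * polar Q u v := by
  rw [nm_apply]
  have h1 : ∀ s : Finset ℕ, polar Q u (∑ i ∈ s, (c ^ i) v) = ∑ i ∈ s, polar Q u ((c ^ i) v) := by
    classical
    intro s
    induction s using Finset.induction_on with
    | empty => simp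
    | insert a s ha ih => rw [Finset.sum_insert ha, Finset.sum_insert ha, polar_add_right, ih]
  rw [h1, Finset.sum_congr rfl fun i _ => polar_pow hc hu i, Finset.sum_const, Finset.card_range, nsmul_eq_mul]

/-- a nonzero fixed space contains a nonsingular vector -/
theorem exists_nonsing_fx (hQ : Nondeg Q) {c : V ≃ₗ[F] V} (hc : c ∈ O Q) {l : ℕ} (hcl : c ^ l = 1) (hlF : (l : F) ≠ 0)
    (h0 : fx c ≠ ⊥) : ∃ k, c k = k ∧ Q k ≠ 0 := by
  by_contra hno
  push Not at hno
  obtain ⟨u, hu, hu0⟩ := Submodule.exists_mem_ne_zero_of_ne_bot h0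
  apply hu0
  apply hQ
  intro v
  have h1 := polar_nm hc hu l v
  have h2 : polar Q u (nm c l v) = 0 := by
    have e1 := hno _ (show c (u + nm c l v) = u + nm c l v by rw [map_add, nm_fix hcl, mem_fx.1 hu])
    have e2 := hno _ (nm_fix hcl v)
    have e3 := hno _ hu
    rw [polar, e1, e2, e3]
    simp
  rw [h2] at h1
  exact (mul_eq_zero.1 h1.symm).resolve_left hlF

/-- the complement of the fixed space -/
def wx (c : V ≃ₗ[F] V) (l : ℕ) : Submodule F V := LinearMap.ker (nm c l)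

theorem mem_wx {c : V ≃ₗ[F] V} {l : ℕ} {v : V} : v ∈ wx c l ↔ nm c l v = 0 := Iff.rfl

theorem sub_mem_wx {c : V ≃ₗ[F] V} {l : ℕ} (v : V) (hcl : c ^ l = 1) : c v - v ∈ wx c l := by
  rw [mem_wx, map_sub, nm_comm, nm_fix hcl, sub_self]

theorem map_wx {c : V ≃ₗ[F] V} {l : ℕ} {v : V} (hv : v ∈ wx c l) : c v ∈ wx c l := by
  rw [mem_wx, nm_comm, mem_wx.1 hv, map_zero]

theorem fix_wx {c : V ≃ₗ[F] V} {l : ℕ} (hlF : (l : F) ≠ 0) {v : V} (hv : v ∈ wx c l) (hf : c v = v) : v = 0 := by
  rw [mem_wx, nm_of_fix hf] at hv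
  exact (smul_eq_zero.1 hv).resolve_left hlF

theorem exists_nonsing_wx (hQ : Nondeg Q) {c : V ≃ₗ[F] V} (hc : c ∈ O Q) {l : ℕ} (hcl : c ^ l = 1) (hlF : (l : F) ≠ 0)
    (h0 : wx c l ≠ ⊥) : ∃ k ∈ wx c l, Q k ≠ 0 := by
  by_contra hno
  push Not at hno
  obtain ⟨u, hu, hu0⟩ := Submodule.exists_mem_ne_zero_of_ne_bot h0
  apply hu0
  apply hQ
  intro v
  have h1 : polar Q u (nm c l v) = 0 := by
    have e1 := polar_nm hc (nm_fix hcl v) l u
    rw [mem_wx.1 hu, polar_zero_right] at e1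
    rw [polar_comm]
    exact (mul_eq_zero.1 e1.symm).resolve_left hlF
  have h2 : (l : F) • v - nm c l v ∈ wx c l := by
    rw [mem_wx, map_sub, map_smul, nm_of_fix (nm_fix hcl v), sub_self]
  have h3 : polar Q u ((l : F) • v - nm c l v) = 0 := by
    have e1 := hno _ ((wx c l).add_mem hu h2)
    rw [polar, e1, hno _ hu, hno _ h2]
    simp
  rw [polar_sub_right, h1, sub_zero, polar_smul_right, smul_eq_mul] at h3
  exact (mul_eq_zero.1 h3).resolve_left hlF

end fix

section main

variable [Finite F] [FiniteDimensional F V]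

theorem st_pow (_h : TC Q σ st) {c : V ≃ₗ[F] V} (hst : ∀ u w, c (st u w) = st (c u) (c w)) {k : V} (hk : c k = k)
    (n : ℕ) (w : V) : (c ^ n) (st k w) = st k ((c ^ n) w) := by
  induction n generalizing w with
  | zero => rfl
  | succ n ih => rw [pow_succ, LinearEquiv.mul_apply, LinearEquiv.mul_apply, hst, hk, ih]

theorem st_sum (h : TC Q σ st) (k : V) (s : Finset ℕ) (f : ℕ → V) : st k (∑ i ∈ s, f i) = ∑ i ∈ s, st k (f i) := by
  classical
  induction s using Finset.induction_on with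
  | empty => rw [Finset.sum_empty, Finset.sum_empty, h.zero_right]
  | insert a s ha ih => rw [Finset.sum_insert ha, Finset.sum_insert ha, h.add_right, ih]

theorem st_wx (h : TC Q σ st) {c : V ≃ₗ[F] V} (hst : ∀ u w, c (st u w) = st (c u) (c w)) {k : V} (hk : c k = k)
    {l : ℕ} {w : V} (hw : w ∈ wx c l) : st k w ∈ wx c l := by
  rw [mem_wx, nm_apply, Finset.sum_congr rfl fun i _ => st_pow h hst hk i w, ← st_sum h, ← nm_apply, mem_wx.1 hw,
    h.zero_right]

theorem st_inj (h : TC Q σ st) {k : V} (hk : Q k ≠ 0) {x : V} (hx : st k x = 0) : x = 0 := by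
  have h1 := h.left k x
  rw [hx, h.zero_left] at h1
  exact (smul_eq_zero.1 h1.symm).resolve_left fun h2 => hk ((map_eq_zero σ).1 h2)

/-- the restriction of `c` to the complement of its fixed space -/
def cW (c : V ≃ₗ[F] V) (l : ℕ) : wx c l →ₗ[F] wx c l := (c : V →ₗ[F] V).restrict fun _ hv => map_wx hv

theorem cW_apply (c : V ≃ₗ[F] V) (l : ℕ) (x : wx c l) : ((cW c l x : wx c l) : V) = c (x : V) := rfl

theorem cW_pow (c : V ≃ₗ[F] V) (l m : ℕ) (x : wx c l) : (((cW c l ^ m) x : wx c l) : V) = (c ^ m) (x : V) := by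
  induction m generalizing x with
  | zero => rfl
  | succ m ih => rw [pow_succ, pow_succ, Module.End.mul_apply, ih, LinearEquiv.mul_apply]; rfl

theorem cW_pow_l {c : V ≃ₗ[F] V} {l : ℕ} (hcl : c ^ l = 1) : cW c l ^ l = 1 := by
  apply LinearMap.ext
  intro x
  apply Subtype.ext
  rw [cW_pow, hcl]
  rfl

theorem cW_fix {c : V ≃ₗ[F] V} {l : ℕ} (hlF : (l : F) ≠ 0) (x : wx c l) (hx : cW c l x = x) : x = 0 :=
  Subtype.ext (fix_wx hlF x.2 (congrArg Subtype.val hx))

theorem nontrivial_wx {c : V ≃ₗ[F] V} {l : ℕ} (hcl : c ^ l = 1) (hc1 : c ≠ 1) : Nontrivial (wx c l) := by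
  obtain ⟨v, hv⟩ : ∃ v, c v ≠ v := by
    by_contra hno
    push Not at hno
    exact hc1 (LinearEquiv.ext hno)
  exact ⟨⟨⟨c v - v, sub_mem_wx v hcl⟩, 0, fun h1 => hv (sub_eq_zero.1 (congrArg Subtype.val h1))⟩⟩

theorem cast_ne {p : ℕ} [CharP F p] [Fact p.Prime] {l : ℕ} (hl : l.Prime) (hlp : l ≠ p) : (l : F) ≠ 0 := by
  intro h0
  have h1 := (CharP.cast_eq_zero_iff F p l).1 h0
  rcases (Nat.dvd_prime hl).1 h1 with h2 | h2
  · exact (Fact.out : p.Prime).one_lt.ne' h2
  · exact hlp h2.symm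

theorem minpoly_cW (h : TC Q σ st) {c : V ≃ₗ[F] V} (hst : ∀ u w, c (st u w) = st (c u) (c w))
    {l : ℕ} {k : V} (hk : c k = k) (hkQ : Q k ≠ 0) :
    (minpoly F (cW c l)).map (σ : F →+* F) = minpoly F (cW c l) := by
  have hfinV : Finite V := Module.finite_of_finite F
  let S : wx c l → wx c l := fun w => ⟨st k w, st_wx h hst hk w.2⟩
  have hSinj : Function.Injective S := by
    intro x y hxy
    have h1 : st k (x : V) = st k (y : V) := congrArg Subtype.val hxy
    have h2 : st k ((x : V) - (y : V)) = 0 := by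
      rw [sub_eq_add_neg, h.add_right, h.neg_right, h1, add_neg_cancel]
    exact Subtype.ext (sub_eq_zero.1 (st_inj h hkQ h2))
  have hS : Function.Surjective S := Finite.surjective_of_injective hSinj
  exact minpoly_map (S := S) hS
    (fun x y => Subtype.ext (h.add_right _ _ _)) (fun a x => Subtype.ext (h.smul_right _ _ _))
    (fun x => Subtype.ext (by
      show st k (c (x : V)) = c (st k (x : V))
      rw [hst, hk]))

theorem finrank_wx_lt {c : V ≃ₗ[F] V} {l : ℕ} (hlF : (l : F) ≠ 0) {k : V} (hk : c k = k) (hk0 : k ≠ 0) :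
    Module.finrank F (wx c l) < Module.finrank F V := by
  apply Submodule.finrank_lt
  intro h1
  have h2 : k ∈ wx c l := by rw [h1]; trivial
  exact hk0 (fix_wx hlF h2 hk)

theorem zmod_ne {p n l : ℕ} [Fact p.Prime] (hl : l.Prime) (hlp : l ≠ p) : ((p ^ n : ℕ) : ZMod l) ≠ 0 := by
  intro h3
  have h4 := (ZMod.natCast_eq_zero_iff _ _).1 h3
  exact hlp ((Nat.prime_dvd_prime_iff_eq hl (Fact.out : p.Prime)).1 (hl.dvd_of_dvd_pow h4))

theorem core (h : TC Q σ st) (hQ : Nondeg Q) {p n : ℕ} [CharP F p] [Fact p.Prime]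
    (hσ : ∀ a : F, σ a = a ^ (p ^ n)) {c : V ≃ₗ[F] V} (hc : c ∈ O Q) (hst : ∀ u w, c (st u w) = st (c u) (c w))
    {l : ℕ} (hl : l.Prime) (hlp : l ≠ p) (hcl : c ^ l = 1) (hc1 : c ≠ 1) (hU : fx c ≠ ⊥) :
    ∃ i, 1 ≤ i ∧ i < Module.finrank F V ∧ (((p ^ n : ℕ) : ZMod l)) ^ i = 1 := by
  have hlF : (l : F) ≠ 0 := cast_ne hl hlp
  obtain ⟨k, hk, hkQ⟩ := exists_nonsing_fx hQ hc hcl hlF hU
  have hnt := nontrivial_wx hcl hc1
  obtain ⟨ζ, hord, hζ⟩ := exists_root hl hlp (cW_pow_l hcl) (cW_fix hlF)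
  obtain ⟨i, hi1, hi2, hi3⟩ := pigeon hl hord hζ (zmod_ne (n := n) hl hlp)
    fun y hy => root_pow hσ (minpoly_cW h hst hk hkQ) hy
  refine ⟨i, hi1, lt_of_le_of_lt hi2 (finrank_wx_lt hlF hk ?_), hi3⟩
  rintro rfl
  rw [QuadraticMap.map_zero] at hkQ
  exact hkQ rfl

theorem finrank_add {c : V ≃ₗ[F] V} {l : ℕ} (hcl : c ^ l = 1) (hlF : (l : F) ≠ 0) :
    Module.finrank F (fx c) + Module.finrank F (wx c l) = Module.finrank F V := by
  have h1 := LinearMap.finrank_range_add_finrank_ker (nm c l)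
  have h2 : LinearMap.range (nm c l) = fx c := by
    ext v
    constructor
    · rintro ⟨x, rfl⟩
      exact nm_fix hcl x
    · intro hv
      exact ⟨(l : F)⁻¹ • v, by rw [map_smul, nm_of_fix hv, smul_smul, inv_mul_cancel₀ hlF, one_smul]⟩
  rw [h2] at h1
  exact h1

theorem wx_nondeg (hQ : Nondeg Q) {c : V ≃ₗ[F] V} (hc : c ∈ O Q) {l : ℕ} (hcl : c ^ l = 1) (hlF : (l : F) ≠ 0)
    {x : V} (hx : x ∈ wx c l) (h : ∀ y ∈ wx c l, polar Q x y = 0) : x = 0 := by
  apply hQ
  intro v
  have h1 : polar Q x (nm c l v) = 0 := by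
    have e1 := polar_nm hc (nm_fix hcl v) l x
    rw [mem_wx.1 hx, polar_zero_right] at e1
    rw [polar_comm]
    exact (mul_eq_zero.1 e1.symm).resolve_left hlF
  have h2 : (l : F) • v - nm c l v ∈ wx c l := by
    rw [mem_wx, map_sub, map_smul, nm_of_fix (nm_fix hcl v), sub_self]
  have h3 := h _ h2
  rw [polar_sub_right, h1, sub_zero, polar_smul_right, smul_eq_mul] at h3
  exact (mul_eq_zero.1 h3).resolve_left hlF

theorem symm_wx {c : V ≃ₗ[F] V} {l : ℕ} {v : V} (hv : v ∈ wx c l) : c.symm v ∈ wx c l := by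
  rw [mem_wx]
  apply c.injective
  rw [← nm_comm, LinearEquiv.apply_symm_apply, mem_wx.1 hv, map_zero]

theorem polar_symm {c : V ≃ₗ[F] V} (hc : c ∈ O Q) (x y : V) : polar Q x (c.symm y) = polar Q (c x) y := by
  rw [← polar_map hc x (c.symm y), LinearEquiv.apply_symm_apply]

/-- the complement of the fixed space has even dimension -/
theorem even_wx (hQ : Nondeg Q) {c : V ≃ₗ[F] V} (hc : c ∈ O Q) {l : ℕ} (hodd : Odd l) (hcl : c ^ l = 1)
    (hlF : (l : F) ≠ 0) : Even (Module.finrank F (wx c l)) := by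
  let D : V →ₗ[F] V := (c : V →ₗ[F] V) - (c.symm : V →ₗ[F] V)
  have hD : ∀ v, D v = c v - c.symm v := fun _ => rfl
  let B : LinearMap.BilinForm F (wx c l) :=
    (polarBilin Q).compl₁₂ (Submodule.subtype (wx c l)) (D.comp (Submodule.subtype (wx c l)))
  have hB : ∀ x y : wx c l, B x y = polar Q (x : V) (D (y : V)) := fun _ _ => rfl
  refine Cfsg.Agent.H727.GW.even_finrank _ (wx c l) B ?_ ?_ rfl
  · intro x
    rw [hB, hD, polar_sub_right, polar_symm hc, polar_comm _ (c (x : V)), sub_self]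
  · intro x hx
    apply Subtype.ext
    have h1 : c.symm (x : V) - c x = 0 := by
      apply wx_nondeg hQ hc hcl hlF (Submodule.sub_mem _ (symm_wx x.2) (map_wx x.2))
      intro y hy
      have h2 := hx ⟨y, hy⟩
      rw [hB, hD, polar_sub_right, polar_symm hc] at h2
      rw [polar_sub_left, polar_comm _ (c.symm (x : V)), polar_symm hc, polar_comm _ (c y), ]
      exact h2
    have h2 : c (c (x : V)) = x := by
      have h3 := congrArg c (sub_eq_zero.1 h1)
      rw [LinearEquiv.apply_symm_apply] at h3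
      exact h3.symm
    have h3 : ∀ (v : V), c (c v) = v → ∀ k : ℕ, (c ^ (2 * k)) v = v := by
      intro v hv k
      induction k with
      | zero => rfl
      | succ k ih => rw [show 2 * (k + 1) = 2 * k + 1 + 1 by ring, pow_succ, pow_succ, LinearEquiv.mul_apply,
          LinearEquiv.mul_apply, hv, ih]
    have h4 : ∀ v : V, c (c v) = v → c v = v := by
      intro v hv
      obtain ⟨k, hk⟩ := hodd
      have h5 : (c ^ l) v = v := by rw [hcl]; rfl
      have h6 : (c ^ l) v = (c ^ (2 * k + 1)) v := by rw [← hk]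
      rw [h6, pow_succ', LinearEquiv.mul_apply, h3 v hv] at h5
      exact h5
    exact fix_wx hlF x.2 (h4 _ h2)

/-- the roots are closed under inversion -/
theorem root_inv (hQ : Nondeg Q) {c : V ≃ₗ[F] V} (hc : c ∈ O Q) {l : ℕ} (hl1 : 1 ≤ l) (hcl : c ^ l = 1)
    (hlF : (l : F) ≠ 0) {y : AlgebraicClosure F} (hy : Polynomial.aeval y (minpoly F (cW c l)) = 0) :
    Polynomial.aeval (y ^ (l - 1)) (minpoly F (cW c l)) = 0 := by
  have hpw : ∀ (n : ℕ) (x z : V), polar Q ((c ^ n) x) ((c ^ n) z) = polar Q x z := fun n x z =>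
    polar_map ((O Q).pow_mem hc n) x z
  have hinv : ∀ (n : ℕ) (x z : V), polar Q ((c ^ ((l - 1) * n)) x) z = polar Q x ((c ^ n) z) := by
    intro n x z
    have e1 : n + (l - 1) * n = l * n := by
      obtain ⟨k, rfl⟩ := Nat.exists_eq_add_of_le hl1
      rw [Nat.add_sub_cancel_left]
      ring
    have e2 : (c ^ n) ((c ^ ((l - 1) * n)) x) = x := by
      rw [← LinearEquiv.mul_apply, ← pow_add, e1, pow_mul, hcl, one_pow]
      rfl
    have e3 := hpw n ((c ^ ((l - 1) * n)) x) z
    rw [e2] at e3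
    exact e3.symm
  have key : ∀ (P : Polynomial F) (x z : wx c l),
      polar Q ((Polynomial.aeval (cW c l ^ (l - 1)) P x : wx c l) : V) (z : V) =
        polar Q (x : V) ((Polynomial.aeval (cW c l) P z : wx c l) : V) := by
    intro P x z
    induction P using Polynomial.induction_on' with
    | add P P' h h' =>
      rw [map_add, map_add, LinearMap.add_apply, LinearMap.add_apply, Submodule.coe_add, Submodule.coe_add,
        polar_add_left, polar_add_right, h, h']
    | monomial n a =>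
      rw [Polynomial.aeval_monomial, Polynomial.aeval_monomial, Module.End.mul_apply,
        Module.End.mul_apply, Module.algebraMap_end_apply, Module.algebraMap_end_apply, Submodule.coe_smul,
        Submodule.coe_smul, polar_smul_left, polar_smul_right, ← pow_mul, cW_pow, cW_pow, hinv]
  have h0 : Polynomial.aeval (cW c l ^ (l - 1)) (minpoly F (cW c l)) = 0 := by
    apply LinearMap.ext
    intro x
    apply Subtype.ext
    apply wx_nondeg hQ hc hcl hlF (Subtype.mem _)
    intro z hz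
    have h1 := key (minpoly F (cW c l)) x ⟨z, hz⟩
    rw [minpoly.aeval] at h1
    rw [LinearMap.zero_apply, Submodule.coe_zero, polar_zero_right] at h1
    exact h1
  have h1 : minpoly F (cW c l) ∣ (minpoly F (cW c l)).comp (Polynomial.X ^ (l - 1)) := by
    apply minpoly.dvd
    rw [Polynomial.aeval_comp, map_pow, Polynomial.aeval_X]
    exact h0
  obtain ⟨R, hR⟩ := h1
  have h2 := congrArg (Polynomial.aeval y) hR
  rw [map_mul, hy, zero_mul, Polynomial.aeval_comp, map_pow, Polynomial.aeval_X] at h2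
  exact h2

/-- **ZA** -/
theorem za (h : TC Q σ st) (hQ : Nondeg Q) (h8 : Module.finrank F V = 8) {p n : ℕ} [CharP F p] [Fact p.Prime]
    (hσ : ∀ a : F, σ a = a ^ (p ^ n)) {c : V ≃ₗ[F] V} (hc : c ∈ O Q)
    (hst : ∀ u w, c (st u w) = st (c u) (c w)) {l : ℕ} (hl : l.Prime) (hl2 : l ≠ 2) (hlp : l ≠ p)
    (hb6 : (((p ^ n : ℕ) : ZMod l)) ^ 6 = 1) (hb2 : (((p ^ n : ℕ) : ZMod l)) ^ 2 ≠ 1)
    (hcl : c ^ l = 1) (hc1 : c ≠ 1) : fx c = ⊥ ∨ Module.finrank F (fx c) = 2 := by
  by_cases hU : fx c = ⊥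
  · exact Or.inl hU
  refine Or.inr ?_
  have hfl : Fact l.Prime := ⟨hl⟩
  have hlF : (l : F) ≠ 0 := cast_ne hl hlp
  obtain ⟨k, hk, hkQ⟩ := exists_nonsing_fx hQ hc hcl hlF hU
  have hk0 : k ≠ 0 := by
    rintro rfl
    rw [QuadraticMap.map_zero] at hkQ
    exact hkQ rfl
  have hlt := finrank_wx_lt (l := l) hlF hk hk0
  have hadd := finrank_add hcl hlF
  have heven := even_wx hQ hc (hl.odd_of_ne_two hl2) hcl hlF
  have hnt := nontrivial_wx hcl hc1
  obtain ⟨ζ, hord, hζ⟩ := exists_root hl hlp (cW_pow_l hcl) (cW_fix hlF)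
  have hr1 : ∀ y : AlgebraicClosure F, Polynomial.aeval y (minpoly F (cW c l)) = 0 →
      Polynomial.aeval (y ^ (p ^ n)) (minpoly F (cW c l)) = 0 :=
    fun y hy => root_pow hσ (minpoly_cW h hst hk hkQ) hy
  have h2 : (2 : ZMod l) ≠ 0 := by
    intro h0
    have h1 : ((2 : ℕ) : ZMod l) = 0 := by exact_mod_cast h0
    exact hl2 ((Nat.prime_dvd_prime_iff_eq hl Nat.prime_two).1 ((ZMod.natCast_eq_zero_iff _ _).1 h1))
  have h6 : 6 ≤ Module.finrank F (wx c l) := by
    obtain ⟨b, hb⟩ : ∃ b : ZMod l, b = ((p ^ n : ℕ) : ZMod l) := ⟨_, rfl⟩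
    rw [← hb] at hb6 hb2
    by_cases hb3 : b ^ 3 = 1
    · have hN : ((p ^ n * (l - 1) : ℕ) : ZMod l) = -b := by
        rw [Nat.cast_mul, ← hb, Nat.cast_sub hl.one_lt.le, Nat.cast_one, CharP.cast_eq_zero]
        ring
      obtain ⟨i, hi1, hi2, hi3⟩ := pigeon hl hord hζ (N := p ^ n * (l - 1)) (by
        rw [hN]
        intro h0
        have h1 : b = 0 := neg_eq_zero.1 h0
        rw [h1] at hb6
        simp at hb6) (fun y hy => by
          rw [pow_mul]
          exact root_inv hQ hc hl.one_lt.le hcl hlF (hr1 y hy))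
      rw [hN] at hi3
      by_contra hlt6
      push Not at hlt6
      have hg := pow_gcd_eq_one.2 ⟨hi3, show (-b) ^ 6 = 1 by rw [neg_pow, hb6]; norm_num⟩
      have hg3 : i.gcd 6 ∣ 2 ∨ i.gcd 6 ∣ 3 := by
        have : i ≤ 5 := by omega
        interval_cases i <;> decide
      rcases hg3 with ⟨m, hm⟩ | ⟨m, hm⟩
      · apply hb2
        have e : (-b) ^ 2 = 1 := by rw [hm, pow_mul, hg, one_pow]
        rwa [neg_sq] at e
      · apply h2
        have e : (-b) ^ 3 = 1 := by rw [hm, pow_mul, hg, one_pow]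
        have e2 : (-b) ^ 3 = -(b ^ 3) := by ring
        rw [e2, hb3] at e
        linear_combination -e
    · obtain ⟨i, hi1, hi2, hi3⟩ := pigeon hl hord hζ (N := p ^ n) (zmod_ne hl hlp) hr1
      rw [← hb] at hi3
      by_contra hlt6
      push Not at hlt6
      have hg := pow_gcd_eq_one.2 ⟨hi3, hb6⟩
      have hg3 : i.gcd 6 ∣ 2 ∨ i.gcd 6 ∣ 3 := by
        have : i ≤ 5 := by omega
        interval_cases i <;> decide
      rcases hg3 with ⟨m, hm⟩ | ⟨m, hm⟩
      · apply hb2
        rw [hm, pow_mul, hg, one_pow]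
      · apply hb3
        rw [hm, pow_mul, hg, one_pow]
  obtain ⟨m, hm⟩ := heven
  omega

theorem finrank_bot' : Module.finrank F (⊥ : Submodule F V) = 0 := finrank_bot F V

theorem three_ne {l : ℕ} (hl : l.Prime) (hl3 : l ≠ 3) : (3 : ZMod l) ≠ 0 := by
  intro h
  have h1 : ((3 : ℕ) : ZMod l) = 0 := by exact_mod_cast h
  exact hl3 ((Nat.prime_dvd_prime_iff_eq hl Nat.prime_three).1 ((ZMod.natCast_eq_zero_iff _ _).1 h1))

theorem ne_p {q l p m : ℕ} (hl : l.Prime) [Fact p.Prime] (hq : q = p ^ m) (P : ZMod l → Prop)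
    (h1 : ¬ P 1) (h0 : ¬ P 0) (h : P (q : ZMod l)) : l ≠ p := by
  rintro rfl
  rcases Nat.eq_zero_or_pos m with hm | hm
  · rw [hq, hm, pow_zero, Nat.cast_one] at h
    exact h1 h
  · rw [hq, Nat.cast_pow, CharP.cast_eq_zero (ZMod l) l, zero_pow hm.ne'] at h
    exact h0 h

/-- **Z9, Z18**: `q = |F|`, `l ∣ q² ± q + 1` -/
theorem z9 (h : TC Q σ st) (hQ : Nondeg Q) (h8 : Module.finrank F V = 8) {p n m : ℕ} [CharP F p] [Fact p.Prime]
    (hσ : ∀ a : F, σ a = a ^ (p ^ n)) (hF : Nat.card F = p ^ m) {c : V ≃ₗ[F] V} (hc : c ∈ O Q)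
    (hst : ∀ u w, c (st u w) = st (c u) (c w)) {l : ℕ} (hl : l.Prime) (hl3 : l ≠ 3)
    (hb : (((p ^ n : ℕ) : ZMod l)) ^ 3 = ((Nat.card F : ℕ) : ZMod l) ∨
      (((p ^ n : ℕ) : ZMod l)) ^ 3 = ((Nat.card F : ℕ) : ZMod l) ^ 2)
    (hd : ((Nat.card F : ℕ) : ZMod l) ^ 2 + ((Nat.card F : ℕ) : ZMod l) + 1 = 0 ∨
      ((Nat.card F : ℕ) : ZMod l) ^ 2 - ((Nat.card F : ℕ) : ZMod l) + 1 = 0) (hcl : c ^ l = 1) : c = 1 := by
  by_contra hc1
  have hfl : Fact l.Prime := ⟨hl⟩
  have h3 := three_ne hl hl3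
  obtain ⟨q, hq⟩ : ∃ q : ZMod l, q = ((Nat.card F : ℕ) : ZMod l) := ⟨_, rfl⟩
  obtain ⟨b, hb'⟩ : ∃ b : ZMod l, b = ((p ^ n : ℕ) : ZMod l) := ⟨_, rfl⟩
  rw [← hq] at hd
  rw [← hq, ← hb'] at hb
  have h6 : q ^ 6 = 1 := by
    rcases hd with hd | hd
    · linear_combination (q ^ 4 - q ^ 3 + q - 1) * hd
    · linear_combination (q ^ 4 + q ^ 3 - q - 1) * hd
  have hne : q ^ 2 ≠ 1 := by
    intro h1
    apply h3
    rcases hd with hd | hd
    · linear_combination (2 - q) * hd + (q - 1) * h1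
    · linear_combination (2 + q) * hd - (q + 1) * h1
  have hlp : l ≠ p := by
    refine ne_p hl hF (fun x => x ^ 2 + x + 1 = 0 ∨ x ^ 2 - x + 1 = 0) ?_ ?_ (by rwa [← hq])
    · rintro (h1 | h1)
      · apply h3; linear_combination h1
      · exact one_ne_zero (α := ZMod l) (by linear_combination h1)
    · rintro (h1 | h1) <;> exact one_ne_zero (α := ZMod l) (by linear_combination h1)
  have hU : fx c ≠ ⊥ := by
    intro h0
    have h1 := card_fix (F := F) hl (c : V →ₗ[F] V) (LinearMap.ext fun v => by rw [cpow_apply, hcl]; rfl) (fx c)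
      (fun x => Iff.rfl)
    rw [h0, finrank_bot', pow_zero, h8, ← hq] at h1
    apply hne
    have : q ^ 8 = q ^ 6 * q ^ 2 := by ring
    rw [this, h6, one_mul] at h1
    exact h1
  obtain ⟨i, hi1, hi2, hi3⟩ := core h hQ hσ hc hst hl hlp hcl hc1 hU
  rw [h8] at hi2
  rw [← hb'] at hi3
  have h18 : b ^ 18 = 1 := by
    have e : b ^ 18 = (b ^ 3) ^ 6 := by ring
    rw [e]
    rcases hb with hb | hb
    · rw [hb, h6]
    · rw [hb, ← pow_mul, mul_comm, pow_mul, h6, one_pow]
  have hg := pow_gcd_eq_one.2 ⟨hi3, h18⟩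
  have hg3 : i.gcd 18 ∣ 6 := by interval_cases i <;> decide
  obtain ⟨k, hk⟩ := hg3
  have hb6 : b ^ 6 = 1 := by rw [hk, pow_mul, hg, one_pow]
  apply hne
  have e : b ^ 6 = (b ^ 3) ^ 2 := by ring
  rw [e] at hb6
  rcases hb with hb | hb
  · rw [hb] at hb6
    exact hb6
  · rw [hb, ← pow_mul] at hb6
    have e2 : q ^ 6 = q ^ (2 * 2) * q ^ 2 := by ring
    rw [h6, hb6, one_mul] at e2
    exact e2.symm

end main

end abs

end Cfsg.Agent.H393.TZ
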