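import Cfsg.Agent.H393.RC.TriZ9

/-!
# S3510, triality, type iii: the box ZZ (helper393)

An automorphism `c` of a twisted composition of order `n` (odd), `c + c⁻¹` scalar on `[V, c]`, `n ∣ q ∓ 1`, has
`n ∣ q0 ^ 2 - 1`.
-/

set_option autoImplicit false
set_option linter.unusedSectionVars false

namespace Cfsg.Agent.H393.TZ

open Module QuadraticMap Cfsg.Agent.LieClassical.OrthCore Cfsg.Agent.LieClassical.OrthTrans
  Cfsg.Agent.LieClassical.OrthSimple Cfsg.Agent.LieClassical.QuadForms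
  Cfsg.Agent.ClassicalGeometry.TrialityOct Cfsg.Agent.ClassicalGeometry.Triality
  Cfsg.Agent.H198.TriBase Cfsg.Agent.H198.TriAut
  Cfsg.Agent.H198.TriDia Cfsg.Agent.H198.TriTC Cfsg.Agent.H198.TwComp

section zz

variable {F V : Type*} [Field F] [AddCommGroup V] [Module F V]
variable {Q : QuadraticForm F V} {σ : F ≃+* F} {st : V → V → V}

theorem zadd (c : V ≃ₗ[F] V) (i j : ℤ) (v : V) : (c ^ (i + j)) v = (c ^ i) ((c ^ j) v) := by
  rw [zpow_add, LinearEquiv.mul_apply]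

theorem zcongr {c : V ≃ₗ[F] V} {n : ℕ} (hcn : c ^ n = 1) {i j : ℤ} (h : (i : ZMod n) = (j : ZMod n)) : c ^ i = c ^ j := by
  obtain ⟨k, hk⟩ := (ZMod.intCast_eq_intCast_iff_dvd_sub _ _ _).1 h
  have h1 : j = i + n * k := by omega
  rw [h1, zpow_add, zpow_mul, zpow_natCast, hcn, one_zpow, mul_one]

theorem zone (c : V ≃ₗ[F] V) (v : V) : (c ^ (1 : ℤ)) v = c v := by rw [zpow_one]

theorem zzero (c : V ≃ₗ[F] V) (v : V) : (c ^ (0 : ℤ)) v = v := by rw [zpow_zero]; rfl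

/-- `c ^ i + c ^ (-i)` is scalar -/
theorem scal {c : V ≃ₗ[F] V} {W : Submodule F V} (hW : ∀ w ∈ W, ∀ i : ℤ, (c ^ i) w ∈ W) {t : F}
    (ht : ∀ w ∈ W, c w + (c ^ (-1 : ℤ)) w = t • w) (i : ℤ) :
    ∃ x : F, ∀ w ∈ W, (c ^ i) w + (c ^ (-i)) w = x • w := by
  have h1 : ∀ i : ℕ, (∃ x : F, ∀ w ∈ W, (c ^ (i : ℤ)) w + (c ^ (-(i : ℤ))) w = x • w) ∧
      ∃ x : F, ∀ w ∈ W, (c ^ ((i : ℤ) + 1)) w + (c ^ (-((i : ℤ) + 1))) w = x • w := by
    intro i
    induction i with
    | zero =>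
      refine ⟨⟨2, fun w _ => ?_⟩, ⟨t, fun w hw => ?_⟩⟩
      · rw [Nat.cast_zero, neg_zero, zzero, two_smul]
      · rw [Nat.cast_zero, zero_add, zone, ht w hw]
    | succ i ih =>
      refine ⟨?_, ?_⟩
      · rw [Nat.cast_succ]
        exact ih.2
      · obtain ⟨⟨x, hx⟩, y, hy⟩ := ih
        refine ⟨t * y - x, fun w hw => ?_⟩
        have e1 := ht _ (hW w hw ((i : ℤ) + 1))
        have e2 := ht _ (hW w hw (-((i : ℤ) + 1)))
        rw [← zone c, ← zadd, ← zadd] at e1 e2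
        have e3 := congrArg (fun v => t • v) (hy w hw)
        simp only [smul_add] at e3
        rw [← e1, ← e2, smul_smul] at e3
        have e4 := hx w hw
        rw [show (1 : ℤ) + -((i : ℤ) + 1) = -(i : ℤ) by ring, show (-1 : ℤ) + ((i : ℤ) + 1) = (i : ℤ) by ring,
          show (-1 : ℤ) + -((i : ℤ) + 1) = -((i : ℤ) + 1 + 1) by ring, show (1 : ℤ) + ((i : ℤ) + 1) = (i : ℤ) + 1 + 1 by ring] at e3
        rw [Nat.cast_succ, sub_smul, ← e3, ← e4]
        abel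
  obtain ⟨n, rfl | rfl⟩ := i.eq_nat_or_neg
  · exact (h1 n).1
  · obtain ⟨x, hx⟩ := (h1 n).1
    refine ⟨x, fun w hw => ?_⟩
    rw [neg_neg, add_comm]
    exact hx w hw

theorem fix_all {c : V ≃ₗ[F] V} {n : ℕ} (hcn : c ^ n = 1) (hnF : (n : F) ≠ 0) {W : Submodule F V}
    (hW : ∀ w ∈ W, ∀ i : ℤ, (c ^ i) w ∈ W) {t : F}
    (ht : ∀ w ∈ W, c w + (c ^ (-1 : ℤ)) w = t • w) {i : ℤ} {w : V} (hw : w ∈ W) (hw0 : w ≠ 0) (hi : (c ^ i) w = w) :
    ∀ w' ∈ W, (c ^ i) w' = w' := by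
  obtain ⟨x, hx⟩ := scal hW ht i
  have h1 : (c ^ (-i)) w = w := by
    have e := zadd c (-i) i w
    rw [neg_add_cancel, zzero, hi] at e
    exact e.symm
  have h2 : x = 2 := by
    have e := hx w hw
    rw [hi, h1, ← two_smul F w] at e
    have e2 : (x - 2) • w = 0 := by rw [sub_smul, e, sub_self]
    exact sub_eq_zero.1 ((smul_eq_zero.1 e2).resolve_right hw0)
  intro w' hw'
  have h3 : (c ^ i) ((c ^ i) w' - w') = (c ^ i) w' - w' := by
    have e := congrArg (fun v => (c ^ i) v) (hx w' hw')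
    simp only [map_add, map_smul] at e
    rw [← zadd c i (-i), add_neg_cancel, zzero, h2, two_smul] at e
    rw [map_sub]
    have e2 : (c ^ i) ((c ^ i) w') = (c ^ i) w' + (c ^ i) w' - w' := by rw [← e]; abel
    rw [e2]
    abel
  have h4 : ∀ k : ℕ, ((c ^ i) ^ k) w' = w' + (k : F) • ((c ^ i) w' - w') := by
    intro k
    induction k with
    | zero => rw [Nat.cast_zero, zero_smul, add_zero]; rfl
    | succ k ih =>
      rw [pow_succ', LinearEquiv.mul_apply, ih, map_add, map_smul, h3, Nat.cast_succ, add_smul, one_smul]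
      abel
  have h5 := h4 n
  rw [← zpow_natCast, ← zpow_mul, mul_comm, zpow_mul, zpow_natCast, hcn, one_zpow] at h5
  have h6 : (n : F) • ((c ^ i) w' - w') = 0 := by
    have e : w' = w' + (n : F) • ((c ^ i) w' - w') := h5
    exact (left_eq_add.1 e)
  exact sub_eq_zero.1 ((smul_eq_zero.1 h6).resolve_left hnF)

/-- the scalar of the power -/
theorem frob [Finite F] [FiniteDimensional F V] {p : ℕ} [CharP F p] [Fact p.Prime] [Nontrivial V] {d : V ≃ₗ[F] V} {W : Submodule F V} {x : F}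
    (hx : ∀ w ∈ W, d w + (d⁻¹) w = x • w) (j : ℕ) : ∀ w ∈ W, (d ^ (p ^ j)) w + (d⁻¹ ^ (p ^ j)) w = x ^ (p ^ j) • w := by
  have hch : CharP (Module.End F V) p := charP_of_injective_algebraMap (algebraMap F (Module.End F V)).injective p
  have hcomm : Commute (d : V →ₗ[F] V) ((d⁻¹ : V ≃ₗ[F] V) : V →ₗ[F] V) := by
    apply LinearMap.ext
    intro v
    show d (d⁻¹ v) = d⁻¹ (d v)
    rw [← LinearEquiv.mul_apply, ← LinearEquiv.mul_apply, mul_inv_cancel, inv_mul_cancel]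
  have h1 := add_pow_char_pow_of_commute p j hcomm
  intro w hw
  have h2 := LinearMap.congr_fun h1 w
  rw [LinearMap.add_apply, cpow_apply, cpow_apply] at h2
  rw [← h2]
  have h3 : ∀ k : ℕ, (((d : V →ₗ[F] V) + ((d⁻¹ : V ≃ₗ[F] V) : V →ₗ[F] V)) ^ k) w = x ^ k • w := by
    intro k
    induction k with
    | zero => rw [pow_zero, pow_zero, one_smul]; rfl
    | succ k ih =>
      rw [pow_succ, Module.End.mul_apply, LinearMap.add_apply]
      have e : (d : V →ₗ[F] V) w + ((d⁻¹ : V ≃ₗ[F] V) : V →ₗ[F] V) w = x • w := hx w hw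
      rw [e, map_smul, ih, smul_smul, pow_succ, mul_comm]
  exact h3 _

section full

variable [FiniteDimensional F V]

/-- a function not changed by `c ^ i` vanishes -/
theorem kill {c : V ≃ₗ[F] V} {φ : V → V} (hadd : ∀ x y, φ (x + y) = φ x + φ y) {i : ℤ}
    (hi : ∀ v, (c ^ i) v = v → v = 0) (h : ∀ w, φ ((c ^ i) w) = φ w) (w : V) : φ w = 0 := by
  let D : V →ₗ[F] V := ((c ^ i : V ≃ₗ[F] V) : V →ₗ[F] V) - LinearMap.id
  have hD : ∀ v, D v = (c ^ i) v - v := fun _ => rfl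
  have hinj : Function.Injective D := by
    rw [injective_iff_map_eq_zero]
    intro v hv
    exact hi v (sub_eq_zero.1 hv)
  obtain ⟨v, hv⟩ := LinearMap.injective_iff_surjective.1 hinj w
  have h1 : (c ^ i) v = w + v := by rw [← hv, hD, sub_add_cancel]
  have h2 := h v
  rw [h1, hadd] at h2
  exact add_eq_right.1 h2

/-- the step: `c` acts on the values of `φ` as a power of `c` on the argument -/
theorem step {c : V ≃ₗ[F] V} {φ : V → V} (hadd : ∀ x y, φ (x + y) = φ x + φ y) {t : F} {m i : ℤ}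
    (ht : ∀ w, c (c w) + w = t • c w)
    (hφ : ∀ w, φ ((c ^ m) w) + φ ((c ^ (-m)) w) = t • φ w) (hc : ∀ w, c (φ w) = φ ((c ^ i) w))
    (hi : ∀ v, (c ^ (i + m)) v = v → v = 0) : ∀ w, c (φ w) = φ ((c ^ m) w) := by
  have hneg : ∀ x, φ (-x) = -φ x := by
    have h0 : φ 0 = 0 := by
      have := hadd 0 0
      rw [add_zero] at this
      exact left_eq_add.1 this
    intro x
    have := hadd x (-x)
    rw [add_neg_cancel, h0] at this
    exact (neg_eq_of_add_eq_zero_right this.symm).symm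
  have h1 : ∀ w, c (c (φ w) - φ ((c ^ m) w)) = c (φ ((c ^ (-m)) w)) - φ w := by
    intro w
    have e1 := ht (φ w)
    have e2 := congrArg c (hφ w)
    rw [map_add, map_smul, ← e1] at e2
    rw [map_sub]
    have e3 : c (φ ((c ^ (-m)) w)) = c (c (φ w)) + φ w - c (φ ((c ^ m) w)) := by rw [← e2]; abel
    rw [e3]
    abel
  have h2 : ∀ w, c (φ ((c ^ i) w) - φ ((c ^ m) w)) = φ ((c ^ i) ((c ^ i) w)) - φ ((c ^ m) ((c ^ i) w)) := by
    intro w
    rw [map_sub, hc, hc, ← zadd c i m, ← zadd c m i, add_comm i m]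
  have h3 := kill (c := c) (φ := fun w => c (φ w) - φ ((c ^ m) w)) (fun x y => by
      rw [hadd, map_add, map_add, hadd]
      abel) (i := i + m) hi (fun w => by
      have e1 := h1 ((c ^ m) w)
      rw [← zadd c (-m) m, neg_add_cancel, zzero] at e1
      have e2 := h2 ((c ^ m) w)
      rw [← hc] at e2
      rw [e1] at e2
      have e3 : c (φ w) - φ ((c ^ m) w) = φ ((c ^ i) ((c ^ i) ((c ^ m) w))) - φ ((c ^ m) ((c ^ i) ((c ^ m) w))) := e2
      show c (φ ((c ^ (i + m)) w)) - φ ((c ^ m) ((c ^ (i + m)) w)) = _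
      rw [e3, hc, zadd c i m])
  intro w
  exact sub_eq_zero.1 (h3 w)

theorem step0 {c : V ≃ₗ[F] V} {φ : V → V} (hadd : ∀ x y, φ (x + y) = φ x + φ y) {t : F} {m i : ℤ}
    (ht : ∀ w, c (c w) + w = t • c w)
    (hφ : ∀ w, φ ((c ^ m) w) + φ ((c ^ (-m)) w) = t • φ w) (hc : ∀ w, c (φ w) = φ ((c ^ i) w))
    (hi : ∀ v, (c ^ (i + m)) v = v → v = 0) (hi' : ∀ v, (c ^ (i - m)) v = v → v = 0)
    (hm : ∀ v, (c ^ (2 * m)) v = v → v = 0) (w : V) : φ w = 0 := by
  have h1 := step hadd ht hφ hc hi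
  have h2 := step hadd (m := -m) ht (fun w => by rw [neg_neg, add_comm]; exact hφ w) hc (by rw [← sub_eq_add_neg]; exact hi')
  refine kill hadd hm (fun w => ?_) w
  have e1 := h1 ((c ^ m) w)
  have e2 := h2 ((c ^ m) w)
  rw [e1, ← zadd, ← zadd, neg_add_cancel, zzero] at e2
  rw [two_mul]
  exact e2

theorem iter {c : V ≃ₗ[F] V} {ψ : V → V → V} {a b : ℤ} (h : ∀ u w, ψ ((c ^ a) u) w = ψ u ((c ^ b) w)) (k : ℕ) :
    ∀ u w, ψ ((c ^ (a * k)) u) w = ψ u ((c ^ (b * k)) w) := by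
  induction k with
  | zero => intro u w; rw [Nat.cast_zero, mul_zero, mul_zero, zzero, zzero]
  | succ k ih =>
    intro u w
    rw [Nat.cast_succ, mul_add, mul_one, add_comm, zadd, h, ih, mul_add, mul_one, zadd]

theorem iterc {c : V ≃ₗ[F] V} {φ : V → V} {a : ℤ} (h : ∀ w, c (φ ((c ^ a) w)) = φ w) (k : ℕ) :
    ∀ w, (c ^ (k : ℤ)) (φ ((c ^ (a * k)) w)) = φ w := by
  induction k with
  | zero => intro w; rw [Nat.cast_zero, mul_zero, zzero, zzero]
  | succ k ih =>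
    intro w
    rw [Nat.cast_succ, mul_add, mul_one, add_comm (a * (k : ℤ)) a, zadd c a (a * k), zadd c k 1, zone, h, ih]

theorem zz_full (h : TC Q σ st) (hQ : Nondeg Q) (h2 : 2 < Module.finrank F V) {c : V ≃ₗ[F] V}
    (hst : ∀ u w, c (st u w) = st (c u) (c w)) {n : ℕ} (hodd : Odd n) (hcn : c ^ n = 1)
    (hinj : ∀ i : ℤ, (i : ZMod n) ≠ 0 → ∀ v, (c ^ i) v = v → v = 0)
    {t : F} (ht : ∀ w, c (c w) + w = t • c w) {N : ℕ}
    (hN3 : (N : ZMod n) ^ 3 = 1) (hN2 : (N : ZMod n) ^ 2 ≠ 1)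
    (hF : ∀ w, (c ^ (N : ℤ)) w + (c ^ (-(N : ℤ))) w = σ t • w)
    (hF2 : ∀ w, (c ^ ((N : ℤ) ^ 2)) w + (c ^ (-((N : ℤ) ^ 2))) w = σ (σ t) • w) : False := by
  obtain ⟨b, hb⟩ : ∃ b : ZMod n, b = (N : ZMod n) := ⟨_, rfl⟩
  rw [← hb] at hN3 hN2
  have htwo : ∀ x : ZMod n, 2 * x = 0 → x = 0 := by
    intro x hx
    obtain ⟨k, hk⟩ := hodd
    have h1 : ((n : ℕ) : ZMod n) = 0 := CharP.cast_eq_zero _ _
    have h3 : ((2 * k + 1 : ℕ) : ZMod n) = 0 := by rw [← hk]; exact h1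
    push_cast at h3
    linear_combination x * h3 - (k : ZMod n) * hx
  have hne1 : (1 : ZMod n) ≠ 0 := by
    intro h1
    apply hN2
    linear_combination (b ^ 2 - 1) * h1
  have b4 : b ^ 4 = b := by linear_combination b * hN3
  have e1 : 1 - b ^ 4 + b ^ 2 ≠ 0 := by
    intro h0
    have h0' : 1 - b + b ^ 2 = 0 := by linear_combination h0 + b4
    exact hne1 (htwo _ (by linear_combination (1 + b) * h0' - hN3))
  have e2 : 1 - b ^ 4 - b ^ 2 ≠ 0 := by
    intro h0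
    have h0' : 1 - b - b ^ 2 = 0 := by linear_combination h0 + b4
    have h5 : b - 1 = 0 := htwo _ (by linear_combination (b - 1) * h0' + hN3)
    exact hN2 (by linear_combination (b + 1) * h5)
  have e3 : 2 * b ^ 2 ≠ 0 := by
    intro h0
    have h5 := htwo _ h0
    exact hne1 (by linear_combination b * h5 - hN3)
  have e4 : 1 + b ^ 4 - b ^ 2 ≠ 0 := by
    intro h0
    have h0' : 1 + b - b ^ 2 = 0 := by linear_combination h0 - b4
    have h5 : b = 0 := htwo _ (by linear_combination (b + 1) * h0' + hN3)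
    exact hne1 (by linear_combination b ^ 2 * h5 - hN3)
  -- the relations
  have a1 : ∀ u w, st ((c ^ (N : ℤ)) u) w + st ((c ^ (-(N : ℤ))) u) w = t • st u w := by
    intro u w
    rw [← h.add_left, hF, h.smul_left, RingEquiv.symm_apply_apply]
  have a2 : ∀ u w, st u ((c ^ ((N : ℤ) ^ 2)) w) + st u ((c ^ (-((N : ℤ) ^ 2))) w) = t • st u w := by
    intro u w
    rw [← h.add_right, hF2, h.smul_right, h.cube]
  have hcc : ∀ (i : ℤ) (v : V), c ((c ^ i) v) = (c ^ i) (c v) := by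
    intro i v
    rw [← zone c v, ← zone c ((c ^ i) v), ← zadd, ← zadd, add_comm]
  have hsub : ∀ u x y, st u (x - y) = st u x - st u y := by
    intro u x y
    rw [sub_eq_add_neg, h.add_right, h.neg_right, ← sub_eq_add_neg]
  -- `f`
  obtain ⟨f, hf⟩ : ∃ f : V → V → V, ∀ u w, f u w = st ((c ^ (N : ℤ)) u) w - st u ((c ^ ((N : ℤ) ^ 2)) w) :=
    ⟨fun u w => _, fun _ _ => rfl⟩
  have f1 : ∀ u w, f ((c ^ (N : ℤ)) u) w = f u ((c ^ (-((N : ℤ) ^ 2))) w) := by
    intro u w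
    have g1 := a1 ((c ^ (N : ℤ)) u) w
    have g2 := a2 ((c ^ (N : ℤ)) u) w
    rw [← zadd c (-(N : ℤ)) N, neg_add_cancel, zzero] at g1
    rw [hf, hf, ← zadd c ((N : ℤ) ^ 2) (-((N : ℤ) ^ 2)), add_neg_cancel, zzero]
    rw [← g2] at g1
    have g3 : st ((c ^ (N : ℤ)) ((c ^ (N : ℤ)) u)) w = st ((c ^ (N : ℤ)) u) ((c ^ ((N : ℤ) ^ 2)) w) +
        st ((c ^ (N : ℤ)) u) ((c ^ (-((N : ℤ) ^ 2))) w) - st u w := by rw [← g1]; abel
    rw [g3]
    abel
  have z3 : c ^ ((N : ℤ) * ((N ^ 2 : ℕ) : ℤ)) = c ^ (1 : ℤ) := zcongr hcn (by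
    push_cast
    rw [← hb]
    linear_combination hN3)
  have z4 : c ^ ((N : ℤ) ^ 2 * ((N ^ 2 : ℕ) : ℤ)) = c ^ (N : ℤ) := zcongr hcn (by
    push_cast
    rw [← hb]
    linear_combination b * hN3)
  have fc : ∀ u w, c (f u w) = f u ((c ^ (1 - (N : ℤ) ^ 4)) w) := by
    intro u w
    have g1 : c (f u w) = f (c u) (c w) := by
      rw [hf, hf, map_sub, hst, hst, hcc, hcc]
    have g2 := iter f1 (N ^ 2) u (c w)
    rw [z3, zone] at g2
    rw [g1, g2, ← zone c w, ← zadd]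
    congr 2
    push_cast
    ring_nf
  have fadd : ∀ u x y, f u (x + y) = f u x + f u y := by
    intro u x y
    rw [hf, hf, hf, map_add, h.add_right, h.add_right]
    abel
  have f2 : ∀ u w, f u ((c ^ ((N : ℤ) ^ 2)) w) + f u ((c ^ (-((N : ℤ) ^ 2))) w) = t • f u w := by
    intro u w
    have g1 := a2 ((c ^ (N : ℤ)) u) w
    have g2 := a2 u ((c ^ ((N : ℤ) ^ 2)) w)
    rw [hf, hf, hf, smul_sub, ← g1, ← g2, ← zadd c ((N : ℤ) ^ 2) (-((N : ℤ) ^ 2)), ← zadd c (-((N : ℤ) ^ 2)) ((N : ℤ) ^ 2),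
      add_neg_cancel, neg_add_cancel]
    abel
  have f0 : ∀ u w, f u w = 0 := by
    intro u
    refine step0 (fadd u) ht (f2 u) (fc u) (hinj _ ?_) (hinj _ ?_) (hinj _ ?_)
    · push_cast
      rw [← hb]
      exact e1
    · push_cast
      rw [← hb]
      exact e2
    · push_cast
      rw [← hb]
      exact e3
  have r2 : ∀ u w, st ((c ^ (N : ℤ)) u) w = st u ((c ^ ((N : ℤ) ^ 2)) w) := by
    intro u w
    have := f0 u w
    rw [hf] at this
    exact sub_eq_zero.1 this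
  have r1 : ∀ u w, c (st u w) = st u ((c ^ (-((N : ℤ) ^ 2))) w) := by
    intro u
    refine step (i := 1 + (N : ℤ) ^ 4) (h.add_right u) ht (fun w => by rw [neg_neg, add_comm]; exact a2 u w) ?_ (hinj _ ?_)
    · intro w
      have g2 := iter r2 (N ^ 2) u (c w)
      rw [z3, zone] at g2
      rw [hst, g2, ← zone c w, ← zadd]
      congr 2
      push_cast
      ring_nf
    · push_cast
      rw [← hb, ← sub_eq_add_neg]
      exact e4
  have r3 : ∀ u w, c (st ((c ^ (N : ℤ)) u) w) = st u w := by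
    intro u w
    rw [r2, r1, ← zadd, neg_add_cancel, zzero]
  have r4 : ∀ x a, (c ^ (((N ^ 2 : ℕ) : ℕ) : ℤ)) (st x ((c ^ (N : ℤ)) a)) = st x a := by
    intro x a
    have g1 := iterc (c := c) (φ := st x) (a := (N : ℤ) ^ 2) (fun w => by
      rw [r1, ← zadd, neg_add_cancel, zzero]) (N ^ 2) a
    rw [z4] at g1
    exact g1
  have r5 : ∀ x d, (c ^ (((N ^ 2 : ℕ) : ℕ) : ℤ)) (st (c x) d) = st x d := by
    intro x d
    have g1 := iterc (c := c) (φ := fun y => st y d) (a := (N : ℤ)) (fun w => r3 w d) (N ^ 2) x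
    rw [z3, zone] at g1
    exact g1
  -- the contradiction
  have key : ∀ a b' d, polar Q a d = 0 → polar Q ((c ^ (N : ℤ)) a) d = 0 → st (st a b') d = 0 := by
    intro a b' d h5 h6
    have g1 := h.lin1 a b' d
    have g2 := h.lin1 ((c ^ (N : ℤ)) a) b' d
    rw [h5, map_zero, zero_smul] at g1
    rw [h6, map_zero, zero_smul] at g2
    have g3 := r5 (st ((c ^ (N : ℤ)) a) b') d
    rw [r3] at g3
    have g4 := r4 (st d b') a
    rw [← g3] at g2
    have g5 := congrArg (fun v => (c ^ (((N ^ 2 : ℕ) : ℕ) : ℤ)) v) g2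
    simp only [map_add, map_zero] at g5
    rw [g4, ← zadd] at g5
    have g6 : (c ^ (((N ^ 2 : ℕ) : ℤ) + ((N ^ 2 : ℕ) : ℤ))) (st (st a b') d) = st (st a b') d := by
      rw [eq_neg_of_add_eq_zero_left g5, eq_neg_of_add_eq_zero_left g1]
    refine hinj _ ?_ _ g6
    push_cast
    rw [← hb, ← two_mul]
    exact e3
  have hex : ∃ a, Q a ≠ 0 := by
    by_contra hno
    push Not at hno
    have hV : ∀ x : V, x = 0 := fun x => hQ x (fun y => by rw [polar, hno, hno, hno]; simp)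
    have hs : Subsingleton V := ⟨fun x y => by rw [hV x, hV y]⟩
    rw [Module.finrank_zero_of_subsingleton] at h2
    omega
  obtain ⟨a, ha⟩ := hex
  have hker : LinearMap.ker ((polarBilin Q a).prod (polarBilin Q ((c ^ (N : ℤ)) a))) ≠ ⊥ := by
    apply LinearMap.ker_ne_bot_of_finrank_lt
    rw [Module.finrank_prod, Module.finrank_self]
    exact h2
  obtain ⟨d, hd, hd0⟩ := Submodule.exists_mem_ne_zero_of_ne_bot hker
  have hd' : ((polarBilin Q a) d, (polarBilin Q ((c ^ (N : ℤ)) a)) d) = (0, 0) := hd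
  have hd1 : polar Q a d = 0 := congrArg Prod.fst hd'
  have hd2 : polar Q ((c ^ (N : ℤ)) a) d = 0 := congrArg Prod.snd hd'
  apply hd0
  have g1 := key a (st d a) d hd1 hd2
  have g2 := key a (st a a) d hd1 hd2
  have g3 : st a d = 0 := by
    rw [h.right, h.smul_left] at g2
    exact (smul_eq_zero.1 g2).resolve_left fun h0 => ha (by
      have h7 := (map_eq_zero σ.symm).1 h0
      exact (map_eq_zero σ.symm).1 h7)
  have g4 := h.left a d
  rw [g3, h.zero_left] at g4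
  exact (smul_eq_zero.1 g4.symm).resolve_left fun h0 => ha ((map_eq_zero σ).1 h0)

end full

section gen

variable [Finite F] [FiniteDimensional F V]

theorem zpow_wx {c : V ≃ₗ[F] V} {n : ℕ} {w : V} (hw : w ∈ wx c n) (i : ℤ) : (c ^ i) w ∈ wx c n := by
  have h1 : ∀ k : ℕ, ∀ w ∈ wx c n, (c ^ (k : ℤ)) w ∈ wx c n := by
    intro k
    induction k with
    | zero => intro w hw; rw [Nat.cast_zero, zzero]; exact hw
    | succ k ih =>
      intro w hw
      rw [Nat.cast_succ, zadd, zone]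
      exact ih _ (map_wx hw)
  have h2 : ∀ k : ℕ, ∀ w ∈ wx c n, (c ^ (-(k : ℤ))) w ∈ wx c n := by
    intro k
    induction k with
    | zero => intro w hw; rw [Nat.cast_zero, neg_zero, zzero]; exact hw
    | succ k ih =>
      intro w hw
      rw [Nat.cast_succ, neg_add, zadd]
      refine ih _ ?_
      rw [zpow_neg_one]
      exact symm_wx hw
  obtain ⟨k, rfl | rfl⟩ := i.eq_nat_or_neg
  · exact h1 k w hw
  · exact h2 k w hw

/-- every element of the complement is of the form `c v - v` -/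
theorem wx_eq {c : V ≃ₗ[F] V} {n : ℕ} (hnF : (n : F) ≠ 0) {w : V} (hw : w ∈ wx c n) : ∃ v, c v - v = w := by
  let D : wx c n →ₗ[F] wx c n := cW c n - LinearMap.id
  have hinj : Function.Injective D := by
    rw [injective_iff_map_eq_zero]
    intro v hv
    exact cW_fix hnF v (sub_eq_zero.1 hv)
  obtain ⟨v, hv⟩ := LinearMap.injective_iff_surjective.1 hinj ⟨w, hw⟩
  exact ⟨v, congrArg Subtype.val hv⟩

theorem fix_full {c : V ≃ₗ[F] V} {n : ℕ} (hcn : c ^ n = 1) (hnF : (n : F) ≠ 0) {i : ℤ}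
    (h : ∀ w ∈ wx c n, (c ^ i) w = w) : c ^ i = 1 := by
  have hfx : ∀ v, c v = v → (c ^ i) v = v := by
    intro v hv
    have h1 : ∀ k : ℕ, (c ^ (k : ℤ)) v = v := by
      intro k
      induction k with
      | zero => rw [Nat.cast_zero, zzero]
      | succ k ih => rw [Nat.cast_succ, zadd, zone, hv, ih]
    obtain ⟨k, rfl | rfl⟩ := i.eq_nat_or_neg
    · exact h1 k
    · have e := zadd c (-(k : ℤ)) k v
      rw [neg_add_cancel, zzero, h1] at e
      exact e.symm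
  apply LinearEquiv.ext
  intro v
  show (c ^ i) v = v
  have h1 : (n : F) • v - nm c n v ∈ wx c n := by
    rw [mem_wx, map_sub, map_smul, nm_of_fix (nm_fix hcn v), sub_self]
  have h2 := h _ h1
  rw [map_sub, map_smul, hfx _ (nm_fix hcn v)] at h2
  have h3 : (n : F) • ((c ^ i) v - v) = 0 := by
    rw [smul_sub, sub_left_inj.1 h2, sub_self]
  exact sub_eq_zero.1 ((smul_eq_zero.1 h3).resolve_left hnF)

theorem zz (h : TC Q σ st) (hQ : Nondeg Q) (h2 : 2 < Module.finrank F V) {p j : ℕ} [CharP F p] [Fact p.Prime]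
    (hσ : ∀ a : F, σ a = a ^ (p ^ j)) {c : V ≃ₗ[F] V} (hc : c ∈ O Q) (hst : ∀ u w, c (st u w) = st (c u) (c w))
    {n : ℕ} (hodd : Odd n) (hord : orderOf c = n) (hnF : (n : F) ≠ 0) {t : F}
    (ht : ∀ v, c (c (c v - v)) + (c v - v) = t • c (c v - v))
    (hb3 : ((p ^ j : ℕ) : ZMod n) ^ 3 = 1 ∨ ((p ^ j : ℕ) : ZMod n) ^ 3 = -1) (hb2 : ((p ^ j : ℕ) : ZMod n) ^ 2 ≠ 1) :
    False := by
  have hcn : c ^ n = 1 := by rw [← hord]; exact pow_orderOf_eq_one c
  have hordz : ∀ i : ℤ, c ^ i = 1 → (i : ZMod n) = 0 := by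
    intro i hi
    apply (ZMod.intCast_zmod_eq_zero_iff_dvd i n).2
    rw [← hord]
    exact orderOf_dvd_iff_zpow_eq_one.2 hi
  have hnt : Nontrivial V := by
    apply Module.nontrivial_of_finrank_pos (R := F)
    omega
  have htw : ∀ w ∈ wx c n, c (c w) + w = t • c w := by
    intro w hw
    obtain ⟨v, rfl⟩ := wx_eq hnF hw
    exact ht v
  have hcm : ∀ w, c ((c ^ (-1 : ℤ)) w) = w := by
    intro w
    rw [← zone c ((c ^ (-1 : ℤ)) w), ← zadd, add_neg_cancel, zzero]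
  have ht1 : ∀ w ∈ wx c n, c w + (c ^ (-1 : ℤ)) w = t • w := by
    intro w hw
    have h1 := htw _ (zpow_wx hw (-1))
    rwa [hcm] at h1
  have hinjw : ∀ i : ℤ, (i : ZMod n) ≠ 0 → ∀ v ∈ wx c n, (c ^ i) v = v → v = 0 := by
    intro i hi v hv hvi
    by_contra hv0
    apply hi
    apply hordz
    exact fix_full hcn hnF (fix_all hcn hnF (fun w hw i => zpow_wx hw i) ht1 hv hv0 hvi)
  have hB : ∀ w ∈ wx c n, (c ^ ((p ^ j : ℕ) : ℤ)) w + (c ^ (-((p ^ j : ℕ) : ℤ))) w = σ t • w := by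
    intro w hw
    have h1 := frob (p := p) (d := c) (W := wx c n) (x := t) (fun w hw => by rw [← zpow_neg_one]; exact ht1 w hw) j w hw
    rw [hσ, ← h1, zpow_natCast, zpow_neg, zpow_natCast, inv_pow]
  by_cases hU : fx c = ⊥
  · -- the fixed space is trivial
    have hall : ∀ v, v ∈ wx c n := by
      intro v
      rw [mem_wx]
      have h1 : nm c n v ∈ fx c := nm_fix hcn v
      rw [hU] at h1
      exact (Submodule.mem_bot F).1 h1
    have hB2 : ∀ w, (c ^ (((p ^ j : ℕ) : ℤ) ^ 2)) w + (c ^ (-(((p ^ j : ℕ) : ℤ) ^ 2))) w = σ (σ t) • w := by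
      intro w
      have h1 := frob (p := p) (d := c ^ ((p ^ j : ℕ) : ℤ)) (W := wx c n) (x := σ t)
        (fun w hw => by rw [← zpow_neg]; exact hB w hw) j w (hall w)
      rw [hσ (σ t), ← h1, ← zpow_natCast, ← zpow_mul, ← zpow_neg, ← zpow_natCast (c ^ (-((p ^ j : ℕ) : ℤ))), ← zpow_mul, pow_two,
        neg_mul]
    have hinj : ∀ i : ℤ, (i : ZMod n) ≠ 0 → ∀ v, (c ^ i) v = v → v = 0 := fun i hi v => hinjw i hi v (hall v)
    have n1 : 1 ≤ n := by
      rcases Nat.eq_zero_or_pos n with h0 | h0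
      · rw [h0, Nat.cast_zero] at hnF
        exact absurd rfl hnF
      · exact h0
    rcases hb3 with hb3 | hb3
    · exact zz_full h hQ h2 hst hodd hcn hinj (fun w => htw w (hall w)) (N := p ^ j) hb3 hb2 (fun w => hB w (hall w)) hB2
    · have hN : (((p ^ j * (n - 1) : ℕ)) : ZMod n) = -((p ^ j : ℕ) : ZMod n) := by
        rw [Nat.cast_mul, Nat.cast_sub n1, Nat.cast_one, CharP.cast_eq_zero (ZMod n) n]
        ring
      have hz1 : c ^ (((p ^ j * (n - 1) : ℕ)) : ℤ) = c ^ (-((p ^ j : ℕ) : ℤ)) := zcongr hcn (by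
        rw [Int.cast_natCast, hN, Int.cast_neg, Int.cast_natCast])
      have hz2 : c ^ (-(((p ^ j * (n - 1) : ℕ)) : ℤ)) = c ^ ((p ^ j : ℕ) : ℤ) := zcongr hcn (by
        rw [Int.cast_neg, Int.cast_natCast, hN, neg_neg, Int.cast_natCast])
      have hz3 : c ^ ((((p ^ j * (n - 1) : ℕ)) : ℤ) ^ 2) = c ^ (((p ^ j : ℕ) : ℤ) ^ 2) := zcongr hcn (by
        rw [Int.cast_pow, Int.cast_natCast, hN, Int.cast_pow, Int.cast_natCast, neg_sq])
      have hz4 : c ^ (-((((p ^ j * (n - 1) : ℕ)) : ℤ) ^ 2)) = c ^ (-(((p ^ j : ℕ) : ℤ) ^ 2)) := by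
        rw [zpow_neg, hz3, ← zpow_neg]
      refine zz_full h hQ h2 hst hodd hcn hinj (fun w => htw w (hall w)) (N := p ^ j * (n - 1)) ?_ ?_ ?_ ?_
      · rw [hN, Odd.neg_pow (by decide), hb3, neg_neg]
      · rw [hN, neg_sq]
        exact hb2
      · intro w
        rw [hz1, hz2, add_comm]
        exact hB w (hall w)
      · intro w
        rw [hz3, hz4]
        exact hB2 w
  · obtain ⟨k, hk, hkQ⟩ := exists_nonsing_fx hQ hc hcn hnF hU
    have hc1 : c ≠ 1 := by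
      rintro rfl
      rw [orderOf_one] at hord
      subst hord
      exact hb2 (Subsingleton.elim _ _)
    have hnw := nontrivial_wx hcn hc1
    obtain ⟨⟨w, hw⟩, hw0⟩ := exists_ne (0 : wx c n)
    have hw0 : w ≠ 0 := fun h0 => hw0 (Subtype.ext h0)
    -- `σ t = t`
    have hst1 : σ t = t := by
      have h1 := ht1 _ (st_wx h hst hk hw)
      have h3 : (c ^ (-1 : ℤ)) (st k w) = st k ((c ^ (-1 : ℤ)) w) := by
        apply c.injective
        rw [hcm, hst, hk, hcm]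
      have h4 : c (st k w) = st k (c w) := by rw [hst, hk]
      rw [h3, h4, ← h.add_right, ht1 w hw, h.smul_right] at h1
      have h5 : (σ t - t) • st k w = 0 := by rw [sub_smul, h1, sub_self]
      rcases smul_eq_zero.1 h5 with h6 | h6
      · exact sub_eq_zero.1 h6
      · exact absurd (st_inj h hkQ h6) hw0
    have hrel : ∀ w ∈ wx c n, (c ^ ((p ^ j : ℕ) : ℤ)) w + (c ^ (-((p ^ j : ℕ) : ℤ))) w = c w + (c ^ (-1 : ℤ)) w := by
      intro w hw
      rw [hB w hw, ht1 w hw, hst1]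
    have hy : (c ^ (((p ^ j : ℕ) : ℤ) - 1)) ((c ^ (((p ^ j : ℕ) : ℤ) + 1)) w - w) = (c ^ (((p ^ j : ℕ) : ℤ) + 1)) w - w := by
      have h1 := hrel _ (zpow_wx hw ((p ^ j : ℕ) : ℤ))
      rw [← zadd, ← zadd, neg_add_cancel, zzero, ← zone c ((c ^ ((p ^ j : ℕ) : ℤ)) w), ← zadd, ← zadd] at h1
      rw [map_sub, ← zadd]
      rw [show ((p ^ j : ℕ) : ℤ) - 1 + (((p ^ j : ℕ) : ℤ) + 1) = ((p ^ j : ℕ) : ℤ) + ((p ^ j : ℕ) : ℤ) by ring,
        show ((p ^ j : ℕ) : ℤ) - 1 = -1 + ((p ^ j : ℕ) : ℤ) by ring, show ((p ^ j : ℕ) : ℤ) + 1 = 1 + ((p ^ j : ℕ) : ℤ) by ring]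
      rw [sub_eq_sub_iff_add_eq_add, h1]
    by_cases hy0 : (c ^ (((p ^ j : ℕ) : ℤ) + 1)) w - w = 0
    · have h1 := hordz _ (fix_full hcn hnF (fix_all hcn hnF (fun w hw i => zpow_wx hw i) ht1 hw hw0 (sub_eq_zero.1 hy0)))
      rw [Int.cast_add, Int.cast_natCast, Int.cast_one] at h1
      apply hb2
      linear_combination (((p ^ j : ℕ) : ZMod n) - 1) * h1
    · have hmem : (c ^ (((p ^ j : ℕ) : ℤ) + 1)) w - w ∈ wx c n := Submodule.sub_mem _ (zpow_wx hw _) hw
      have h1 := hordz _ (fix_full hcn hnF (fix_all hcn hnF (fun w hw i => zpow_wx hw i) ht1 hmem hy0 hy))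
      rw [Int.cast_sub, Int.cast_natCast, Int.cast_one] at h1
      apply hb2
      linear_combination (((p ^ j : ℕ) : ZMod n) + 1) * h1

end gen

end zz

/-- **ZZ** -/
theorem ZZ {F : Type*} [Field F] [Finite F] {s : F ≃+* F} (h3 : ∀ a, s (s (s a)) = a) (hne : s ≠ RingEquiv.refl F) {q0 : ℕ}
    (hq : Nat.card F = q0 ^ 3) {c : V8 F ≃ₗ[F] V8 F} (hc : c ∈ AutD (fG s)) {n : ℕ} (hodd : Odd n)
    (hn : orderOf c = n) (h1 : n ∣ Nat.card F - 1 ∨ n ∣ Nat.card F + 1) (h2 : ¬ n ∣ q0 ^ 2 - 1) {t : F}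
    (ht : ∀ v, c (c (c v - v)) + (c v - v) = t • c (c v - v)) : False := by
  obtain ⟨p, k, j, hp, hk, hch, hq', hs, hj⟩ := numbers h3 hne
  have hfp : Fact p.Prime := ⟨hp⟩
  have hq0 : q0 = p ^ k := by
    rw [hq] at hq'
    exact Nat.pow_left_injective (by norm_num) hq'
  have hq1 : 1 ≤ q0 := by
    rw [hq0]
    exact Nat.one_le_pow _ _ hp.pos
  have hq3 : 1 ≤ q0 ^ 3 := Nat.one_le_pow _ _ hq1
  obtain ⟨a, ha⟩ : ∃ a : ZMod n, a = ((q0 : ℕ) : ZMod n) := ⟨_, rfl⟩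
  have ha3 : a ^ 3 = 1 ∨ a ^ 3 = -1 := by
    rcases h1 with h1 | h1
    · left
      have h5 := (ZMod.natCast_eq_zero_iff _ _).2 h1
      rw [hq, Nat.cast_sub hq3] at h5
      push_cast at h5
      rw [← ha] at h5
      linear_combination h5
    · right
      have h5 := (ZMod.natCast_eq_zero_iff _ _).2 h1
      rw [hq] at h5
      push_cast at h5
      rw [← ha] at h5
      linear_combination h5
  have ha2 : a ^ 2 ≠ 1 := by
    intro h5
    apply h2
    apply (ZMod.natCast_eq_zero_iff _ _).1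
    rw [Nat.cast_sub (Nat.one_le_pow _ _ hq1)]
    push_cast
    rw [← ha, h5, sub_self]
  have hnF : (n : F) ≠ 0 := by
    intro h0
    have h5 := (CharP.cast_eq_zero_iff F p n).1 h0
    have hpc : p ∣ Nat.card F := by
      rw [hq', ← pow_mul]
      exact dvd_pow_self p (by omega)
    have hc1 : 1 ≤ Nat.card F := by rw [hq]; exact hq3
    apply hp.one_lt.ne'
    apply Nat.dvd_one.1
    rcases h1 with h1 | h1
    · have h6 := Nat.dvd_sub hpc (h5.trans h1)
      rwa [Nat.sub_sub_self hc1] at h6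
    · exact (Nat.dvd_add_right hpc).1 (h5.trans h1)
  have hb : (((p ^ j : ℕ) : ZMod n)) = a ∨ (((p ^ j : ℕ) : ZMod n)) = a ^ 2 := by
    rcases hj with rfl | rfl
    · left
      rw [ha, hq0]
    · right
      rw [ha, hq0]
      push_cast
      ring
  refine zz (p := p) (j := j) (Cfsg.Agent.H256.RC.tc_fG h3) nondeg8 (by rw [finrank8]; norm_num) hs (c := c) (E_le_O hc.1)
    hc.2 hodd hn hnF ht ?_ ?_
  · rcases hb with hb | hb
    · rw [hb]
      exact ha3
    · left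
      rw [hb]
      rcases ha3 with h | h
      · linear_combination (a ^ 3 + 1) * h
      · linear_combination (a ^ 3 - 1) * h
  · rcases hb with hb | hb
    · rw [hb]
      exact ha2
    · rw [hb]
      intro h5
      apply ha2
      rcases ha3 with h | h
      · linear_combination (a + 1) * (h5 - a * h)
      · linear_combination (a - 1) * (a * h - h5)

end Cfsg.Agent.H393.TZ
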